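import Mathlib
import Cfsg.Agent.Base
import Cfsg.Agent.Lib.ClassMax.Decomp

/-!
Extension field structures: `K`-points as `F`-subspaces, the group of semilinear maps, conjugates
of `K`-points under an overgroup and the rigidity lemma for pairs with largest intersection.
-/

set_option autoImplicit false
set_option linter.unusedSectionVars false

namespace H21

open Module Cfsg H97

variable {F K V : Type*} [Field F] [Field K] [Algebra F K] [AddCommGroup V] [Module F V]
  [Module K V] [IsScalarTower F K V]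

variable (F K) in
/-- The `K`-point spanned by `d`, as an `F`-subspace. -/
def pt (d : V) : Submodule F V := (K ∙ d).restrictScalars F

theorem mem_pt {d x : V} : x ∈ pt F K d ↔ ∃ k : K, k • d = x := by
  rw [pt, Submodule.restrictScalars_mem, Submodule.mem_span_singleton]

theorem mem_pt' {d x : V} : x ∈ pt F K d ↔ x ∈ K ∙ d := Iff.rfl

theorem smul_mem_pt (k : K) (d : V) : k • d ∈ pt F K d := mem_pt.2 ⟨k, rfl⟩

theorem self_mem_pt (d : V) : d ∈ pt F K d := mem_pt.2 ⟨1, one_smul _ _⟩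

theorem smul_mem_pt' (k : K) {d x : V} (h : x ∈ pt F K d) : k • x ∈ pt F K d :=
  (K ∙ d).smul_mem k h

theorem pt_eq_of_mem {d x : V} (h : x ∈ pt F K d) (hx : x ≠ 0) : pt F K x = pt F K d := by
  obtain ⟨k, rfl⟩ := mem_pt.1 h
  have hk : k ≠ 0 := by rintro rfl; simp at hx
  rw [pt, pt, Submodule.span_singleton_smul_eq (IsUnit.mk0 k hk)]

theorem finrank_pt {d : V} (hd : d ≠ 0) : finrank F (pt F K d) = finrank F K := by
  let e : K ≃ₗ[F] pt F K d := (LinearEquiv.toSpanNonzeroSingleton K V d hd).restrictScalars F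
  exact e.finrank_eq.symm

theorem algebraMap_smul' (a : F) (k : K) (x : V) : a • k • x = (algebraMap F K a * k) • x := by
  rw [mul_smul, algebraMap_smul]

theorem smul_comm' (a : F) (k : K) (x : V) : k • a • x = a • k • x := by
  rw [← algebraMap_smul K a x, ← algebraMap_smul K a (k • x), smul_smul, smul_smul, mul_comm]

/-- `F`-subspaces of `K` that are stable under an element outside `F`. -/
theorem eq_bot_or_top_of_mul (hr : (finrank F K).Prime) {Δ : Submodule F K} {l : K}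
    (hl : ∀ a : F, algebraMap F K a ≠ l) (h : ∀ k ∈ Δ, l * k ∈ Δ) : Δ = ⊥ ∨ Δ = ⊤ := by
  let A : Subalgebra F K :=
    { carrier := {l | ∀ k ∈ Δ, l * k ∈ Δ}
      mul_mem' := fun {a b} ha hb k hk => by rw [mul_assoc]; exact ha _ (hb k hk)
      add_mem' := fun {a b} ha hb k hk => by rw [add_mul]; exact Δ.add_mem (ha k hk) (hb k hk)
      algebraMap_mem' := fun a k hk => by rw [← Algebra.smul_def]; exact Δ.smul_mem a hk }
  rcases (Subalgebra.isSimpleOrder_of_finrank_prime F K hr).eq_bot_or_eq_top A with h1 | h1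
  · have : l ∈ A := h
    rw [h1, Algebra.mem_bot] at this
    obtain ⟨a, ha⟩ := this
    exact absurd ha (hl a)
  by_cases h0 : Δ = ⊥
  · exact Or.inl h0
  right
  obtain ⟨k, hk, hk0⟩ := Submodule.exists_mem_ne_zero_of_ne_bot h0
  refine eq_top_iff.2 fun y _ => ?_
  have : y * k⁻¹ ∈ A := h1 ▸ Algebra.mem_top
  simpa [hk0] using this k hk

/-- The coefficients of the vectors of `N` on the `K`-point of `d`. -/
def coef (N : Submodule F V) (d : V) : Submodule F K :=
  N.comap ((LinearMap.toSpanSingleton K V d).restrictScalars F)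

theorem mem_coef {N : Submodule F V} {d : V} {k : K} : k ∈ coef (K := K) N d ↔ k • d ∈ N := Iff.rfl

theorem pt_le_of_mul (hr : (finrank F K).Prime) {N : Submodule F V} {d : V} {l k₀ : K}
    (hl : ∀ a : F, algebraMap F K a ≠ l) (hk₀ : k₀ ≠ 0) (hk : k₀ • d ∈ N)
    (h : ∀ k : K, k • d ∈ N → (l * k) • d ∈ N) : pt F K d ≤ N := by
  rcases eq_bot_or_top_of_mul hr (Δ := coef (K := K) N d) hl h with h1 | h1
  · have : k₀ ∈ coef (K := K) N d := hk
    rw [h1] at this
    exact absurd this hk₀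
  · intro x hx
    obtain ⟨k, rfl⟩ := mem_pt.1 hx
    exact mem_coef.1 (h1 ▸ Submodule.mem_top)

variable (F K V) in
/-- The group of the `F`-linear automorphisms that are semilinear over `K`. -/
def NK : Subgroup (V ≃ₗ[F] V) where
  carrier := {g | (∀ k : K, ∃ k' : K, ∀ x, g (k • x) = k' • g x) ∧
    ∀ k' : K, ∃ k : K, ∀ x, g (k • x) = k' • g x}
  one_mem' := ⟨fun k => ⟨k, fun _ => rfl⟩, fun k => ⟨k, fun _ => rfl⟩⟩
  mul_mem' := by
    rintro a b ⟨ha, ha'⟩ ⟨hb, hb'⟩
    refine ⟨fun k => ?_, fun k => ?_⟩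
    · obtain ⟨k₁, h₁⟩ := hb k
      obtain ⟨k₂, h₂⟩ := ha k₁
      exact ⟨k₂, fun x => by rw [le_mul_apply, le_mul_apply, h₁, h₂]⟩
    · obtain ⟨k₁, h₁⟩ := ha' k
      obtain ⟨k₂, h₂⟩ := hb' k₁
      exact ⟨k₂, fun x => by rw [le_mul_apply, le_mul_apply, h₂, h₁]⟩
  inv_mem' := by
    rintro a ⟨ha, ha'⟩
    refine ⟨fun k => ?_, fun k => ?_⟩
    · obtain ⟨k₁, h₁⟩ := ha' k
      exact ⟨k₁, fun x => a.injective (by rw [h₁, le_apply_inv, le_apply_inv])⟩
    · obtain ⟨k₁, h₁⟩ := ha k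
      exact ⟨k₁, fun x => a.injective (by rw [h₁, le_apply_inv, le_apply_inv])⟩

theorem mem_NK_of [FiniteDimensional F K] {g : V ≃ₗ[F] V}
    (h : ∀ k : K, ∃ k' : K, ∀ x, g (k • x) = k' • g x) : g ∈ NK F K V := by
  refine ⟨h, ?_⟩
  by_cases hV : ∃ v : V, v ≠ 0
  swap
  · push Not at hV
    exact fun k => ⟨k, fun x => by rw [hV x]; simp⟩
  obtain ⟨v, hv⟩ := hV
  have hgv : g v ≠ 0 := by simpa using hv
  choose θ hθ using h
  let θ' : K →ₗ[F] K :=
    { toFun := θ
      map_add' := fun a b => smul_left_injective K hgv (by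
        simp only [← hθ, add_smul, map_add])
      map_smul' := fun a b => smul_left_injective K hgv (by
        simp only [← hθ, smul_assoc, map_smul, RingHom.id_apply]) }
  have hinj : Function.Injective θ' := fun a b hab => by
    have : g (a • v) = g (b • v) := by rw [hθ, hθ]; exact congrArg (· • g v) hab
    exact smul_left_injective K hv (g.injective this)
  intro k'
  obtain ⟨k, hk⟩ := LinearMap.injective_iff_surjective.1 hinj k'
  exact ⟨k, fun x => by rw [hθ]; exact congrArg (· • g x) hk⟩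

theorem mem_NK_of_linear {g : V ≃ₗ[F] V} (h : ∀ (k : K) x, g (k • x) = k • g x) :
    g ∈ NK F K V := ⟨fun k => ⟨k, h k⟩, fun k => ⟨k, h k⟩⟩

theorem map_pt_of_NK {g : V ≃ₗ[F] V} (hg : g ∈ NK F K V) (d : V) :
    (pt F K d).map (g : V →ₗ[F] V) = pt F K (g d) := by
  ext x
  constructor
  · rintro ⟨y, hy, rfl⟩
    obtain ⟨k, rfl⟩ := mem_pt.1 hy
    obtain ⟨k', hk'⟩ := hg.1 k
    exact mem_pt.2 ⟨k', (hk' d).symm⟩
  · intro hx
    obtain ⟨k', rfl⟩ := mem_pt.1 hx
    obtain ⟨k, hk⟩ := hg.2 k'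
    exact ⟨k • d, smul_mem_pt k d, hk d⟩

/-- A `K`-linear automorphism as an `F`-linear one. -/
def res : (V ≃ₗ[K] V) →* (V ≃ₗ[F] V) where
  toFun g := g.restrictScalars F
  map_one' := rfl
  map_mul' _ _ := rfl

theorem res_apply (g : V ≃ₗ[K] V) (x : V) : res (F := F) g x = g x := rfl

theorem res_mem_NK (g : V ≃ₗ[K] V) : res (F := F) g ∈ NK F K V :=
  mem_NK_of_linear fun k x => g.map_smul k x

theorem det_res (g : V ≃ₗ[K] V) : LinearMap.det ((res (F := F) g : V ≃ₗ[F] V) : V →ₗ[F] V) =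
    Algebra.norm F (LinearMap.det (g : V →ₗ[K] V)) :=
  LinearMap.det_restrictScalars (f := (g : V →ₗ[K] V))

theorem Has.res {M : Subgroup (V ≃ₗ[F] V)} {M' : Subgroup (V ≃ₗ[K] V)} {f : V → V}
    (h : Has M' f) (hM : ∀ g ∈ M', H21.res (F := F) g ∈ M) : Has M f := by
  obtain ⟨g, hg, e⟩ := h
  exact ⟨H21.res g, hM g hg, e⟩

/-! ### conjugates of `K`-points -/

variable (K) in
/-- `U` is a conjugate under `M` of a `K`-point spanned by a vector satisfying `S`. -/
def Good (M : Subgroup (V ≃ₗ[F] V)) (S : V → Prop) (U : Submodule F V) : Prop :=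
  ∃ g ∈ M, ∃ d, d ≠ 0 ∧ S d ∧ U = (pt F K d).map (g : V →ₗ[F] V)

variable {M : Subgroup (V ≃ₗ[F] V)} {S : V → Prop}

theorem good_pt {d : V} (hd : d ≠ 0) (hS : S d) : Good K M S (pt F K d) :=
  ⟨1, M.one_mem, d, hd, hS, (map_one_le _).symm⟩

theorem Good.map {U : Submodule F V} (h : Good K M S U) {g : V ≃ₗ[F] V} (hg : g ∈ M) :
    Good K M S (U.map (g : V →ₗ[F] V)) := by
  obtain ⟨a, ha, d, hd, hS, rfl⟩ := h
  exact ⟨g * a, M.mul_mem hg ha, d, hd, hS, (map_mul_le _ _ _).symm⟩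

theorem Good.finrank_eq {U : Submodule F V} (h : Good K M S U) : finrank F U = finrank F K := by
  obtain ⟨a, -, d, hd, -, rfl⟩ := h
  rw [LinearEquiv.finrank_map_eq, finrank_pt hd]

theorem map_inf_le (U W : Submodule F V) (g : V ≃ₗ[F] V) :
    (U ⊓ W).map (g : V →ₗ[F] V) = U.map (g : V →ₗ[F] V) ⊓ W.map (g : V →ₗ[F] V) :=
  Submodule.map_inf _ g.injective

theorem map_le_injective (g : V ≃ₗ[F] V) {U W : Submodule F V}
    (h : U.map (g : V →ₗ[F] V) = W.map (g : V →ₗ[F] V)) : U = W :=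
  Submodule.map_injective_of_injective g.injective h

variable (K M S) in
/-- `U`, `W` are distinct conjugates whose intersection is non-zero and as large as possible. -/
structure MaxPair (U W : Submodule F V) : Prop where
  left : Good K M S U
  right : Good K M S W
  ne : U ≠ W
  ne_bot : U ⊓ W ≠ ⊥
  max : ∀ U' W', Good K M S U' → Good K M S W' → U' ≠ W' →
    finrank F ↥(U' ⊓ W') ≤ finrank F ↥(U ⊓ W)

theorem MaxPair.symm {U W : Submodule F V} (h : MaxPair K M S U W) : MaxPair K M S W U :=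
  ⟨h.right, h.left, h.ne.symm, by rw [inf_comm]; exact h.ne_bot, by rw [inf_comm]; exact h.max⟩

theorem MaxPair.map {U W : Submodule F V} (h : MaxPair K M S U W) {g : V ≃ₗ[F] V} (hg : g ∈ M) :
    MaxPair K M S (U.map (g : V →ₗ[F] V)) (W.map (g : V →ₗ[F] V)) := by
  refine ⟨h.left.map hg, h.right.map hg, fun e => h.ne (map_le_injective g e), fun e => ?_, ?_⟩
  · rw [← map_inf_le] at e
    exact h.ne_bot (map_le_injective g (by rw [e, Submodule.map_bot]))
  · rw [← map_inf_le, LinearEquiv.finrank_map_eq]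
    exact h.max

variable [FiniteDimensional F V]

theorem MaxPair.of_le {U W U' W' : Submodule F V} (h : MaxPair K M S U W) (h1 : Good K M S U')
    (h2 : Good K M S W') (hne : U' ≠ W') (hle : U ⊓ W ≤ U' ⊓ W') :
    MaxPair K M S U' W' ∧ U' ⊓ W' = U ⊓ W := by
  have e : U ⊓ W = U' ⊓ W' := Submodule.eq_of_le_of_finrank_le hle (h.max _ _ h1 h2 hne)
  exact ⟨⟨h1, h2, hne, e ▸ h.ne_bot, e ▸ h.max⟩, e.symm⟩

theorem exists_maxPair {U W : Submodule F V} (h1 : Good K M S U) (h2 : Good K M S W) (hne : U ≠ W)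
    (hb : U ⊓ W ≠ ⊥) : ∃ d W, d ≠ 0 ∧ S d ∧ MaxPair K M S (pt F K d) W := by
  classical
  let p : ℕ → Prop := fun j => ∃ U W, Good K M S U ∧ Good K M S W ∧ U ≠ W ∧ finrank F ↥(U ⊓ W) = j
  have hb' : ∀ j, p j → j ≤ finrank F V := by
    rintro j ⟨U, W, -, -, -, rfl⟩
    exact Submodule.finrank_le _
  have h0 : p (finrank F ↥(U ⊓ W)) := ⟨U, W, h1, h2, hne, rfl⟩
  obtain ⟨U₁, W₁, h3, h4, h5, h6⟩ := Nat.findGreatest_spec (hb' _ h0) h0
  have hmax : ∀ U' W', Good K M S U' → Good K M S W' → U' ≠ W' →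
      finrank F ↥(U' ⊓ W') ≤ finrank F ↥(U₁ ⊓ W₁) := fun U' W' a b c => by
    rw [h6]
    exact Nat.le_findGreatest (Submodule.finrank_le _) ⟨U', W', a, b, c, rfl⟩
  have hP : MaxPair K M S U₁ W₁ := ⟨h3, h4, h5, fun e => hb (by
    have := hmax U W h1 h2 hne
    rw [e, finrank_bot] at this
    exact Submodule.finrank_eq_zero.1 (by omega)), hmax⟩
  obtain ⟨g, hg, d, hd, hS, e⟩ := h3
  have := hP.map (M.inv_mem hg)
  rw [map_inv_le e.symm] at this
  exact ⟨d, _, hd, hS, this⟩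

theorem MaxPair.exists_left {U W : Submodule F V} (h : MaxPair K M S U W) : ∃ u ∈ U, u ∉ W := by
  by_contra hc
  push Not at hc
  exact h.ne (Submodule.eq_of_le_of_finrank_eq hc (by rw [h.left.finrank_eq, h.right.finrank_eq]))

theorem MaxPair.exists_right {U W : Submodule F V} (h : MaxPair K M S U W) : ∃ u ∈ W, u ∉ U :=
  h.symm.exists_left

/-- An element fixing the intersection and mapping one further vector of `W` into `W` stabilises
`W`. -/
theorem MaxPair.stab {U W : Submodule F V} (h : MaxPair K M S U W) {t : V ≃ₗ[F] V} (ht : t ∈ M)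
    (hD : ∀ z ∈ U, z ∈ W → t z = z) {y : V} (hy : y ∈ W) (hyU : y ∉ U) (hty : t y ∈ W) :
    ∀ z ∈ W, t z ∈ W := by
  by_contra hc
  have hne : W.map (t : V →ₗ[F] V) ≠ W := fun e => hc fun z hz => e ▸ ⟨z, hz, rfl⟩
  have := (h.of_le (h.right.map ht) h.right hne fun z hz => ⟨⟨z, hz.2, hD z hz.1 hz.2⟩, hz.2⟩).2
  have h1 : t y ∈ U ⊓ W := this ▸ ⟨⟨y, hy, rfl⟩, hty⟩
  have h2 := t.injective (hD _ h1.1 h1.2)
  rw [h2] at h1
  exact hyU h1.1

theorem exists_sub_smul_mem {D W : Submodule F V} (hle : D ≤ W)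
    (h : finrank F D + 1 = finrank F W) {x : V} (hx : x ∈ W) (hxD : x ∉ D) {y : V} (hy : y ∈ W) :
    ∃ a : F, y - a • x ∈ D := by
  have h1 : D ⊔ F ∙ x = W := Submodule.eq_of_le_of_finrank_eq
    (sup_le hle ((Submodule.span_singleton_le_iff_mem _ _).2 hx))
    (by rw [Submodule.finrank_sup_span_singleton hxD, h])
  rw [← h1] at hy
  obtain ⟨z, hz, w, hw, rfl⟩ := Submodule.mem_sup.1 hy
  obtain ⟨a, rfl⟩ := Submodule.mem_span_singleton.1 hw
  exact ⟨a, by simpa using hz⟩

/-- The rigidity lemma: the intersection of a maximal pair has codimension one as soon as enough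
`K`-transvections act on it. -/
theorem MaxPair.codim_one (hr : (finrank F K).Prime) {d : V} (hd : d ≠ 0) {W : Submodule F V}
    (h : MaxPair K M S (pt F K d) W) (φ : V →ₗ[F] K) (hφ : ∀ k : K, φ (k • d) = 0) {x : V}
    (hx : x ∈ W) (hφx : φ x ≠ 0) (ht : ∀ k : K, ∃ t ∈ M, ∀ y ∈ W, t y = y + (k * φ y) • d) :
    finrank F ↥(pt F K d ⊓ W) + 1 = finrank F K := by
  have hφU : ∀ z ∈ pt F K d, φ z = 0 := fun z hz => by
    obtain ⟨k, rfl⟩ := mem_pt.1 hz; exact hφ k
  have hxU : x ∉ pt F K d := fun h => hφx (hφU x h)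
  have key : ∀ k : K, ∀ y ∈ W, y ∉ pt F K d → (k * φ y) • d ∈ W → ∀ z ∈ W, (k * φ z) • d ∈ W := by
    intro k y hy hyU hk z hz
    obtain ⟨t, htM, e⟩ := ht k
    have := h.stab htM (fun z hz hz' => by rw [e z hz', hφU z hz]; simp) hy hyU
      (by rw [e y hy]; exact W.add_mem hy hk) z hz
    rw [e z hz] at this
    simpa using W.sub_mem this hz
  have hnle : ¬ pt F K d ≤ W := by
    obtain ⟨u, hu, hu'⟩ := h.exists_left
    exact fun h => hu' (h hu)
  obtain ⟨d₀, hd₀, hd₀'⟩ := Submodule.exists_mem_ne_zero_of_ne_bot h.ne_bot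
  obtain ⟨k₀, rfl⟩ := mem_pt.1 hd₀.1
  have hk₀ : k₀ ≠ 0 := by rintro rfl; simp at hd₀'
  have h1 : W = (pt F K d ⊓ W) ⊔ F ∙ x := by
    refine le_antisymm (fun y hy => ?_)
      (sup_le inf_le_right ((Submodule.span_singleton_le_iff_mem _ _).2 hx))
    obtain ⟨a, ha⟩ : ∃ a : F, algebraMap F K a = φ y * (φ x)⁻¹ := by
      by_contra hc
      push Not at hc
      refine hnle (pt_le_of_mul hr hc hk₀ hd₀.2 fun k hk => ?_)
      have := key (k * (φ x)⁻¹) x hx hxU (by simpa [hφx] using hk) y hy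
      convert this using 2; ring
    have hy' : y - a • x ∈ W := W.sub_mem hy (W.smul_mem a hx)
    have hφy : φ (y - a • x) = 0 := by
      rw [map_sub, map_smul, Algebra.smul_def, ha]; field_simp; ring
    have h2 : y - a • x ∈ pt F K d := by
      by_contra hc
      refine hnle fun z hz => ?_
      obtain ⟨k, rfl⟩ := mem_pt.1 hz
      have := key (k * (φ x)⁻¹) _ hy' hc (by simp [hφy]) x hx
      simpa [hφx] using this
    have : y = (y - a • x) + a • x := by abel
    rw [this]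
    exact Submodule.add_mem_sup ⟨h2, hy'⟩ (Submodule.smul_mem _ a (Submodule.mem_span_singleton_self x))
  have h2 := Submodule.finrank_sup_span_singleton (p := pt F K d ⊓ W) (v := x) fun h => hxU h.1
  rw [← h1, h.right.finrank_eq] at h2
  exact h2.symm

end H21
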