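import Mathlib
import Cfsg.Agent.Base
import Cfsg.Agent.Lib.ExtFld.Basic

/-!
Overgroups of the semilinear group of an extension field of prime degree in the linear group.
-/

set_option autoImplicit false
set_option linter.unusedSectionVars false

namespace H21

open Module Cfsg H97

section General

variable {F V : Type*} [Field F] [AddCommGroup V] [Module F V] {M : Subgroup (V ≃ₗ[F] V)}

/-- `1 + σ` lies in `M` and acts trivially on `U` and on `V / U`. -/
structure InT (M : Subgroup (V ≃ₗ[F] V)) (U : Submodule F V) (σ : V →ₗ[F] V) : Prop where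
  has : Has M (fun x => x + σ x)
  mem : ∀ x, σ x ∈ U
  ker : ∀ u ∈ U, σ u = 0

theorem InT.sq {U : Submodule F V} {σ : V →ₗ[F] V} (h : InT M U σ) (x : V) : σ (σ x) = 0 :=
  h.ker _ (h.mem x)

theorem has_neg_of_sq {σ : V →ₗ[F] V} (h : Has M (fun x => x + σ x)) (h2 : ∀ x, σ (σ x) = 0) :
    Has M (fun x => x - σ x) :=
  h.inv fun x => by simp [h2]

theorem InT.add {U : Submodule F V} {σ τ : V →ₗ[F] V} (h : InT M U σ) (h' : InT M U τ) :
    InT M U (σ + τ) :=
  ⟨(h.has.comp h'.has).congr fun x => by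
      simp only [map_add, h.ker _ (h'.mem x), LinearMap.add_apply]; abel,
    fun x => U.add_mem (h.mem x) (h'.mem x), fun u hu => by simp [h.ker u hu, h'.ker u hu]⟩

theorem InT.neg {U : Submodule F V} {σ : V →ₗ[F] V} (h : InT M U σ) : InT M U (-σ) :=
  ⟨(has_neg_of_sq h.has h.sq).congr fun x => by simp [sub_eq_add_neg],
    fun x => U.neg_mem (h.mem x), fun u hu => by simp [h.ker u hu]⟩

theorem InT.sub {U : Submodule F V} {σ τ : V →ₗ[F] V} (h : InT M U σ) (h' : InT M U τ) :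
    InT M U (σ - τ) := by
  rw [sub_eq_add_neg]; exact h.add h'.neg

/-- conjugation of a linear map -/
def cjm (g : V ≃ₗ[F] V) (σ : V →ₗ[F] V) : V →ₗ[F] V :=
  (g : V →ₗ[F] V) ∘ₗ σ ∘ₗ ((g⁻¹ : V ≃ₗ[F] V) : V →ₗ[F] V)

theorem cjm_apply (g : V ≃ₗ[F] V) (σ : V →ₗ[F] V) (x : V) : cjm g σ x = g (σ (g⁻¹ x)) := rfl

theorem cjm_apply' (g : V ≃ₗ[F] V) (σ : V →ₗ[F] V) (x : V) : cjm g σ (g x) = g (σ x) := by
  rw [cjm_apply, le_inv_apply_apply]

theorem InT.conj {U : Submodule F V} {σ : V →ₗ[F] V} (h : InT M U σ) {g : V ≃ₗ[F] V}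
    (hg : g ∈ M) : InT M (U.map (g : V →ₗ[F] V)) (cjm g σ) :=
  ⟨(h.has.conj hg).congr fun x => by rw [map_add, le_apply_inv, cjm_apply],
    fun x => ⟨_, h.mem _, rfl⟩, by
      rintro _ ⟨u, hu, rfl⟩
      rw [LinearEquiv.coe_coe, cjm_apply', h.ker u hu, map_zero]⟩

theorem has_comm {σ τ : V →ₗ[F] V} (h : Has M (fun x => x + σ x)) (h' : Has M (fun x => x + τ x))
    (h1 : ∀ x, σ (σ x) = 0) (h2 : ∀ x, τ (τ x) = 0) (h3 : ∀ x, σ (τ (σ x)) = 0)
    (h4 : ∀ x, τ (σ (τ x)) = 0) : Has M (fun x => x + (σ (τ x) - τ (σ x))) :=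
  (h.comp (h'.comp ((has_neg_of_sq h h1).comp (has_neg_of_sq h' h2)))).congr fun x => by
    simp only [map_add, map_sub, h1, h2, h3, h4, map_zero]; abel

theorem exists_dual_of_range {ρ : V →ₗ[F] V} {a : V} (ha : a ≠ 0) (h : ∀ x, ρ x ∈ F ∙ a) :
    ∃ ψ : Dual F V, ∀ x, ρ x = ψ x • a := by
  obtain ⟨φ, hφ⟩ := exists_dual_of_ne_zero (F := F) ha 1
  refine ⟨φ ∘ₗ ρ, fun x => ?_⟩
  obtain ⟨c, hc⟩ := Submodule.mem_span_singleton.1 (h x)
  simp [← hc, hφ]

/-- The functionals whose transvection group with centre `a` lies in `M`. -/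
def Phi (M : Subgroup (V ≃ₗ[F] V)) (a : V) : Submodule F (Dual F V) where
  carrier := {ψ | ψ a = 0 ∧ ∀ c : F, HasT M a (c • ψ)}
  zero_mem' := ⟨rfl, fun c => by simpa using hasT_zero_right a⟩
  add_mem' := by
    rintro ψ χ ⟨h1, h2⟩ ⟨h3, h4⟩
    exact ⟨by simp [h1, h3], fun c => by
      rw [smul_add]; exact (h2 c).add_right (h4 c) (by simp [h1])⟩
  smul_mem' := by
    rintro c ψ ⟨h1, h2⟩
    exact ⟨by simp [h1], fun c' => by rw [smul_smul]; exact h2 _⟩

theorem Phi_coann_inv {a : V} {g : V ≃ₗ[F] V} (hg : g ∈ M) (ha : g a = a) {y : V}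
    (hy : y ∈ (Phi M a).dualCoannihilator) : g y ∈ (Phi M a).dualCoannihilator := by
  rw [Submodule.mem_dualCoannihilator] at hy ⊢
  rintro ψ ⟨h1, h2⟩
  have ha' : g⁻¹ a = a := by conv_lhs => rw [← ha, le_inv_apply_apply]
  refine hy (ψ ∘ₗ (g : V →ₗ[F] V)) ⟨by simpa [ha] using h1, fun c => ?_⟩
  have := (h2 c).conj' (ψ := c • (ψ ∘ₗ (g : V →ₗ[F] V))) (M.inv_mem hg) fun x => by
    simp [le_apply_inv]
  rwa [ha'] at this

/-- An additive map that preserves all points is a scalar. -/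
theorem exists_scalar_of_forall (hV : ∀ a : V, ∃ b, b ∉ F ∙ a) (f : V →+ V)
    (h : ∀ y, f y ∈ F ∙ y) : ∃ k : F, ∀ y, f y = k • y := by
  have key : ∀ (a y : V) (k : F), a ≠ 0 → f a = k • a → y ∉ F ∙ a → f y = k • y := by
    intro a y k ha hk hy
    obtain ⟨l, hl⟩ := Submodule.mem_span_singleton.1 (h y)
    obtain ⟨m, hm⟩ := Submodule.mem_span_singleton.1 (h (a + y))
    rw [map_add, hk, ← hl] at hm
    have h1 : (l - m) • y = (m - k) • a := by linear_combination (norm := module) -hm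
    have h2 : l = m := by
      by_contra hc
      refine hy (Submodule.mem_span_singleton.2 ⟨(l - m)⁻¹ * (m - k), ?_⟩)
      rw [mul_smul, ← h1, smul_smul, inv_mul_cancel₀ (sub_ne_zero.2 hc), one_smul]
    rw [h2, sub_self, zero_smul, eq_comm, smul_eq_zero, sub_eq_zero] at h1
    rw [← hl, h2, h1.resolve_right ha]
  obtain ⟨a, ha⟩ := hV 0
  have ha0 : a ≠ 0 := by rintro rfl; simp at ha
  obtain ⟨k, hk⟩ := Submodule.mem_span_singleton.1 (h a)
  refine ⟨k, fun y => ?_⟩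
  by_cases hy : y ∈ F ∙ a
  swap
  · exact key a y k ha0 hk.symm hy
  by_cases hy0 : y = 0
  · simp [hy0]
  obtain ⟨c, hc⟩ := hV a
  have hc0 : c ≠ 0 := by rintro rfl; simp at hc
  refine key c y k hc0 (key a c k ha0 hk.symm hc) fun h' => hc ?_
  obtain ⟨s, rfl⟩ := Submodule.mem_span_singleton.1 h'
  have hs : s ≠ 0 := by rintro rfl; simp at hy0
  simpa [hs] using (F ∙ a).smul_mem s⁻¹ hy

end General

variable {F K V : Type*} [Field F] [Field K] [Algebra F K] [AddCommGroup V] [Module F V]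
  [Module K V] [IsScalarTower F K V] {M : Subgroup (V ≃ₗ[F] V)}

theorem exists_notMem_pt [FiniteDimensional F V] (hm : finrank F K < finrank F V) (a : V) :
    ∃ b, b ∉ pt F K a := by
  by_contra hc
  push Not at hc
  have h1 : pt F K a = ⊤ := eq_top_iff.2 fun b _ => hc b
  by_cases ha : a = 0
  · have : finrank F V = 0 := finrank_zero_iff_forall_zero.2 fun b => by
      obtain ⟨k, rfl⟩ := mem_pt.1 (hc b); simp [ha]
    omega
  have := finrank_pt (F := F) (K := K) ha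
  rw [h1, finrank_top] at this
  omega

theorem mem_NK_of_map_pt [FiniteDimensional F K] (hV : ∀ a : V, ∃ b, b ∉ pt F K a)
    {g : V ≃ₗ[F] V} (h : ∀ d, d ≠ 0 → (pt F K d).map (g : V →ₗ[F] V) = pt F K (g d)) :
    g ∈ NK F K V := by
  refine mem_NK_of fun k => ?_
  let f : V →+ V :=
    { toFun := fun y => g (k • g⁻¹ y)
      map_zero' := by simp
      map_add' := fun x y => by simp }
  obtain ⟨k', hk'⟩ := exists_scalar_of_forall (F := K) hV f fun y => by
    by_cases hy : y = 0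
    · simp [hy]
    have := h (g⁻¹ y) (by simpa using hy)
    rw [le_apply_inv] at this
    rw [← mem_pt' (F := F), ← this]
    exact ⟨_, smul_mem_pt k _, rfl⟩
  exact ⟨k', fun x => by simpa [f, le_inv_apply_apply] using hk' (g x)⟩

theorem exists_norm_one [Finite K] (hr : (finrank F K).Prime) :
    ∃ l : K, (∀ a : F, algebraMap F K a ≠ l) ∧ Algebra.norm F l = 1 := by
  have : FiniteDimensional F K := .of_finrank_pos hr.pos
  have h1 : 1 < Nat.card (K ≃ₐ[F] K) := by rw [IsGalois.card_aut_eq_finrank]; exact hr.one_lt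
  obtain ⟨s, hs⟩ : ∃ s : K ≃ₐ[F] K, s ≠ 1 := by
    have := Finite.one_lt_card_iff_nontrivial.1 h1
    exact exists_ne 1
  by_contra hc
  push Not at hc
  have key : ∀ μ : K, ∃ a : F, s μ = algebraMap F K a * μ := by
    intro μ
    by_cases hμ : μ = 0
    · exact ⟨0, by simp [hμ]⟩
    by_contra h2
    push Not at h2
    refine hc (s μ * μ⁻¹) (fun a ha => h2 a (by rw [ha]; field_simp)) ?_
    have h3 : Algebra.norm F μ ≠ 0 := Algebra.norm_ne_zero_iff.2 hμ
    rw [map_mul, Algebra.norm_eq_of_algEquiv, ← map_mul, mul_inv_cancel₀ hμ, map_one]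
  refine hs (AlgEquiv.ext fun μ => ?_)
  obtain ⟨a, ha⟩ := key μ
  obtain ⟨b, hb⟩ := key (μ + 1)
  rw [map_add, map_one, ha] at hb
  by_cases hab : a = b
  · subst hab
    have : algebraMap F K a = 1 := by linear_combination -hb
    rw [ha, this]; simp
  · have h1 : algebraMap F K (a - b) ≠ 0 := by simpa [sub_eq_zero] using hab
    have : μ = algebraMap F K ((b - 1) / (a - b)) := by
      rw [map_div₀, eq_div_iff h1]
      simp only [map_sub, map_one]
      linear_combination hb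
    rw [this]; simp

/-- The `K`-linear map `x ↦ φ x • d`. -/
def ktv (φ : V →ₗ[K] K) (d : V) : V →ₗ[F] V := (φ.smulRight d).restrictScalars F

theorem ktv_apply (φ : V →ₗ[K] K) (d x : V) : ktv (F := F) φ d x = φ x • d := rfl

variable (K) in
/-- `M` contains the `K`-transvections and the dilations with ratio `l`. -/
structure LinHyp (M : Subgroup (V ≃ₗ[F] V)) (l : K) : Prop where
  notMem : ∀ a : F, algebraMap F K a ≠ l
  tv : ∀ (d : V) (φ : V →ₗ[K] K), φ d = 0 → ∃ g ∈ M, ∀ x, g x = x + φ x • d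
  dil : ∀ (y : V) (φ : V →ₗ[K] K), φ y = 1 → ∃ g ∈ M, ∀ x, g x = x + ((l - 1) * φ x) • y

variable {l : K}

theorem LinHyp.inT (h : LinHyp K M l) {d : V} {φ : V →ₗ[K] K} (hφ : φ d = 0) (k : K) :
    InT M (pt F K d) (ktv φ (k • d)) :=
  ⟨h.tv _ _ (by simp [hφ]), fun x => by rw [ktv_apply, smul_smul]; exact smul_mem_pt _ _,
    fun u hu => by
      obtain ⟨k', rfl⟩ := mem_pt.1 hu
      simp [ktv_apply, hφ]⟩

theorem LinHyp.exists_inT (h : LinHyp K M l) {U : Submodule F V} (hU : Good K M (fun _ => True) U)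
    {y u : V} (hy : y ∉ U) (hu : u ∈ U) : ∃ σ, InT M U σ ∧ σ y = u := by
  obtain ⟨g, hg, d, -, -, rfl⟩ := hU
  rw [mem_map_le'] at hy hu
  obtain ⟨k, hk⟩ := mem_pt.1 hu
  obtain ⟨φ, h1, h2⟩ := exists_dual_of_notMem_span (F := K) hy 1
  refine ⟨_, (h.inT h1 k).conj hg, ?_⟩
  rw [cjm_apply, ktv_apply, h2, one_smul, hk, le_apply_inv]

theorem LinHyp.eq_top (hr : (finrank F K).Prime) (h : LinHyp K M l) {d : V} {N : Submodule F V}
    (hN : ∀ g ∈ M, (∀ k : K, g (k • d) = k • d) → ∀ y ∈ N, g y ∈ N) {y : V} (hy : y ∈ N)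
    (hyd : y ∉ pt F K d) : N = ⊤ := by
  obtain ⟨φ, h1, h2⟩ := exists_dual_of_notMem_span (F := K) hyd 1
  have h3 : ∀ w, φ w = 0 → w ∈ N := fun w hw => by
    obtain ⟨g, hg, e⟩ := h.tv w φ hw
    have := hN g hg (fun k => by simp [e, h1]) y hy
    rw [e, h2, one_smul] at this
    simpa using N.sub_mem this hy
  have h4 : pt F K y ≤ N := pt_le_of_mul hr h.notMem one_ne_zero (by simpa using hy) fun k hk => by
    obtain ⟨g, hg, e⟩ := h.dil y φ h2
    have := hN g hg (fun k => by simp [e, h1]) _ hk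
    rw [e, map_smul, h2] at this
    convert this using 1
    simp only [smul_eq_mul, mul_one]; module
  refine eq_top_iff.2 fun z _ => ?_
  have : z = (z - φ z • y) + φ z • y := by abel
  rw [this]
  exact N.add_mem (h3 _ (by simp [h2])) (h4 (smul_mem_pt _ _))

variable [FiniteDimensional F V]

theorem LinHyp.SLV_le (hr : (finrank F K).Prime) (hm : finrank F K < finrank F V)
    (h : LinHyp K M l) {a : V} {ψ : Dual F V} (ha : a ≠ 0) (hψ : ∃ x, ψ x ≠ 0) (hψa : ψ a = 0)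
    (hT : ∀ c : F, HasT M a (c • ψ)) : SLV F V ≤ M := by
  have : FiniteDimensional F K := .of_finrank_pos hr.pos
  set N := (Phi M a).dualCoannihilator with hN
  have hNle : N ≤ pt F K a := by
    intro y hy
    by_contra hc
    have := h.eq_top hr (N := N) (d := a)
      (fun g hg hk y hy => Phi_coann_inv hg (by simpa using hk 1) hy) hy hc
    obtain ⟨x, hx⟩ := hψ
    have h1 : x ∈ (Phi M a).dualCoannihilator := by rw [← hN, this]; trivial
    exact hx ((Submodule.mem_dualCoannihilator x).1 h1 ψ ⟨hψa, hT⟩)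
  let p : V → Prop := fun a => ∀ χ : Dual F V, (∀ k : K, χ (k • a) = 0) → HasT M a χ
  have hpa : p a := fun χ hχ => by
    have : χ ∈ Phi M a := by
      rw [← Subspace.dualCoannihilator_dualAnnihilator_eq (W := Phi M a),
        Submodule.mem_dualAnnihilator]
      intro y hy
      obtain ⟨k, rfl⟩ := mem_pt.1 (hNle hy)
      exact hχ k
    simpa using this.2 1
  have step : ∀ a b : V, p a → b ∉ pt F K a → a ≠ 0 → p b := by
    intro a b hp hb ha χ hχ
    have h1 : a ∉ K ∙ (b - a) := fun h1 => by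
      obtain ⟨k, hk⟩ := Submodule.mem_span_singleton.1 h1
      have hk0 : k ≠ 0 := by rintro rfl; exact ha (by simpa using hk.symm)
      refine hb (mem_pt.2 ⟨k⁻¹ + 1, ?_⟩)
      rw [add_smul, one_smul]
      nth_rewrite 1 [← hk]
      rw [smul_smul, inv_mul_cancel₀ hk0]; simp
    obtain ⟨φ, h2, h3⟩ := exists_dual_of_notMem_span h1 (1 : K)
    obtain ⟨g, hg, e⟩ := h.tv _ φ h2
    have h4 : ∀ k : K, g (k • a) = k • b := fun k => by
      rw [e, map_smul, h3]; simp only [smul_eq_mul, mul_one]; module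
    have := (hp (χ ∘ₗ (g : V →ₗ[F] V)) fun k => by simp [h4, hχ]).conj' (ψ := χ) hg fun _ => rfl
    rwa [show g a = b by simpa using h4 1] at this
  have hp : ∀ b, b ≠ 0 → p b := fun b hb => by
    by_cases h1 : b ∈ pt F K a
    swap
    · exact step a b hpa h1 ha
    obtain ⟨c, hc⟩ := exists_notMem_pt hm a
    have hc0 : c ≠ 0 := by rintro rfl; simp at hc
    refine step c b (step a c hpa hc ha) (fun h2 => hc ?_) hc0
    rw [← pt_eq_of_mem h1 hb, pt_eq_of_mem h2 hb]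
    exact self_mem_pt c
  refine SLV_le_of_all fun b χ hχ => ?_
  by_cases hb : b = 0
  · rw [hb]; exact hasT_zero_left χ
  by_cases h1 : ∀ k : K, χ (k • b) = 0
  · exact hp b hb χ h1
  let Ψ : V →ₗ[F] Dual F K :=
    { toFun := fun z => χ ∘ₗ (LinearMap.toSpanSingleton K V z).restrictScalars F
      map_add' := fun x y => by ext k; simp
      map_smul' := fun c x => by ext k; simp [smul_comm'] }
  obtain ⟨c, hc, hc0⟩ : ∃ c, Ψ c = 0 ∧ c ≠ 0 := by
    have := LinearMap.ker_ne_bot_of_finrank_lt (f := Ψ) (by rwa [Subspace.dual_finrank_eq])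
    obtain ⟨c, hc, hc0⟩ := Submodule.exists_mem_ne_zero_of_ne_bot this
    exact ⟨c, hc, hc0⟩
  have hc' : ∀ k : K, χ (k • c) = 0 := fun k => congrArg (fun f : Dual F K => f k) hc
  have hcb : c ∉ pt F K b := fun h2 => h1 fun k => by
    obtain ⟨k', hk'⟩ := mem_pt.1 (pt_eq_of_mem h2 hc0 ▸ smul_mem_pt k b : k • b ∈ pt F K c)
    rw [← hk']; exact hc' k'
  obtain ⟨φ, h2, h3⟩ := exists_dual_of_notMem (pt F K b) hcb (1 : F)
  have := (hp b hb φ fun k => h2 _ (smul_mem_pt k b)).comm (hp c hc0 χ hc')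
    (h2 _ (self_mem_pt b)) (by simpa using hc' 1) hχ
  simpa [h3] using this

theorem linHyp_of [Finite K] (hr : (finrank F K).Prime) (hH : NK F K V ⊓ SLV F V ≤ M) :
    ∃ l : K, LinHyp K M l := by
  have : FiniteDimensional F K := .of_finrank_pos hr.pos
  have : FiniteDimensional K V := Module.Finite.of_restrictScalars_finite F K V
  obtain ⟨l, hl, hn⟩ := exists_norm_one (F := F) (K := K) hr
  have hl0 : l ≠ 0 := fun h => hl 0 (by simp [h])
  refine ⟨l, hl, fun d φ hφ => Has.res (hasT_SLV hφ) fun g hg =>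
    hH ⟨res_mem_NK g, mem_SLV.2 ?_⟩, fun y φ hφ => ?_⟩
  · rw [det_res, mem_SLV.1 hg, map_one]
  · let f : V →ₗ[K] V := LinearMap.transvection ((l - 1) • φ) y
    have hd : LinearMap.det f = l := by simp [f, LinearMap.transvection.det, hφ]
    let g := LinearMap.equivOfDetNeZero f (by rwa [hd])
    refine ⟨res g, hH ⟨res_mem_NK g, mem_SLV.2 ?_⟩, fun x => rfl⟩
    rw [det_res, show (g : V →ₗ[K] V) = f from rfl, hd, hn]

/-- A non-trivial element acting trivially on the intersection of a maximal pair and on the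
quotient gives a transvection group. -/
theorem LinHyp.SLV_le_of_inT (hr : (finrank F K).Prime) (hm : finrank F K < finrank F V)
    (h : LinHyp K M l) {d : V} {W : Submodule F V}
    (hP : MaxPair K M (fun _ => True) (pt F K d) W)
    (hD : finrank F ↥(pt F K d ⊓ W) + 1 = finrank F K) {ρ₀ : V →ₗ[F] V}
    (h₀ : InT M (pt F K d ⊓ W) ρ₀) (hne : ∃ z, ρ₀ z ≠ 0) : SLV F V ≤ M := by
  obtain ⟨x, hx, hxU⟩ := hP.exists_right
  obtain ⟨u, hu, huW⟩ := hP.exists_left
  set D := pt F K d ⊓ W with hDdef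
  let N : Submodule F V :=
    { carrier := {y | ∀ ρ, InT M D ρ → ρ y = 0}
      zero_mem' := fun ρ _ => map_zero ρ
      add_mem' := fun {a b} ha hb ρ hρ => by rw [map_add, ha ρ hρ, hb ρ hρ, add_zero]
      smul_mem' := fun c a ha ρ hρ => by rw [map_smul, ha ρ hρ, smul_zero] }
  have hN : ∀ g ∈ M, (∀ z ∈ D, g z = z) → ∀ y ∈ N, g y ∈ N := by
    intro g hg hfix y hy ρ hρ
    have h1 := hρ.conj (M.inv_mem hg)
    rw [map_inv_le (mem_stab_iff_map.1 (mem_stab_of_maps fun z hz => by rwa [hfix z hz]))] at h1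
    have h2 := hy _ h1
    rw [cjm_apply, inv_inv] at h2
    simpa using h2
  obtain ⟨ρ, hρ, hρu⟩ : ∃ ρ, InT M D ρ ∧ ρ u ≠ 0 := by
    by_contra hc
    push Not at hc
    obtain ⟨σ, hσ, hσu⟩ := h.exists_inT hP.right huW hx
    obtain ⟨g, hg, e⟩ := hσ.has
    have h1 := hN g hg (fun z hz => by simp [e, hσ.ker z hz.2]) u hc
    simp only [e, hσu] at h1
    have h2 : x ∈ N := by simpa using N.sub_mem h1 hc
    have h3 := h.eq_top hr (N := N) (d := d) (fun g hg hk => hN g hg fun z hz => by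
      obtain ⟨k, rfl⟩ := mem_pt.1 hz.1; exact hk k) h2 hxU
    obtain ⟨z, hz⟩ := hne
    exact hz ((h3 ▸ Submodule.mem_top : z ∈ N) ρ₀ h₀)
  obtain ⟨φ, h1, h2⟩ := exists_dual_of_notMem_span (F := K) hxU 1
  obtain ⟨k, rfl⟩ := mem_pt.1 hu
  obtain ⟨ψ, hψ⟩ := exists_dual_of_range (ρ := ρ ∘ₗ ktv φ (k • d)) hρu fun z => by
    obtain ⟨a, ha⟩ := exists_sub_smul_mem (inf_le_left : D ≤ pt F K d)
      (by rw [hD, hP.left.finrank_eq]) hu (fun h => huW h.2) ((h.inT h1 k).mem z)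
    have := hρ.ker _ ha
    rw [map_sub, map_smul, sub_eq_zero] at this
    exact Submodule.mem_span_singleton.2 ⟨a, this.symm⟩
  have hψ' : ∀ z, ρ (φ z • k • d) = ψ z • ρ (k • d) := hψ
  have hφρ : ∀ z, φ (ρ z) = 0 := fun z => by
    obtain ⟨k, hk⟩ := mem_pt.1 (hρ.mem z).1
    simp [← hk, h1]
  refine h.SLV_le hr hm hρu (ψ := ψ) ⟨x, fun h0 => hρu ?_⟩ ?_ fun c => ?_
  · simpa [h2, h0] using hψ' x
  · have := hψ' (ρ (k • d))
    rw [hφρ] at this
    simpa [hρu] using this.symm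
  · have ht := h.inT h1 (algebraMap F K c * k)
    refine (has_comm hρ.has ht.has hρ.sq ht.sq (fun z => by simp [ktv_apply, hφρ])
      (fun z => by simp [ktv_apply, hφρ])).congr fun z => ?_
    rw [ktv_apply, ktv_apply, hφρ, zero_smul, sub_zero, ← algebraMap_smul', smul_comm', map_smul,
      hψ', smul_smul]
    rfl

theorem MaxPair.comm_inT {S : V → Prop} {U W : Submodule F V} (hP : MaxPair K M S U W)
    (hD : finrank F ↥(U ⊓ W) + 1 = finrank F K) {σ τ : V →ₗ[F] V} (hσ : InT M W σ)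
    (hτ : InT M U τ) {u x : V} (hu : u ∈ U) (huW : u ∉ W) (hx : x ∈ W) (hxU : x ∉ U)
    (h1 : σ u ∈ U) (h2 : τ x ∈ W) : InT M (U ⊓ W) (σ ∘ₗ τ - τ ∘ₗ σ) := by
  have h3 : ∀ y ∈ U, σ y ∈ U ⊓ W := fun y hy => by
    obtain ⟨a, ha⟩ := exists_sub_smul_mem (inf_le_left : U ⊓ W ≤ U)
      (by rw [hD, hP.left.finrank_eq]) hu (fun h => huW h.2) hy
    have := hσ.ker _ ha.2
    rw [map_sub, map_smul, sub_eq_zero] at this
    exact ⟨this ▸ U.smul_mem a h1, hσ.mem y⟩
  have h4 : ∀ y ∈ W, τ y ∈ U ⊓ W := fun y hy => by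
    obtain ⟨a, ha⟩ := exists_sub_smul_mem (inf_le_right : U ⊓ W ≤ W)
      (by rw [hD, hP.right.finrank_eq]) hx (fun h => hxU h.1) hy
    have := hτ.ker _ ha.1
    rw [map_sub, map_smul, sub_eq_zero] at this
    exact ⟨hτ.mem y, this ▸ W.smul_mem a h2⟩
  exact ⟨has_comm hσ.has hτ.has hσ.sq hτ.sq (fun z => hσ.ker _ (h4 _ (hσ.mem z)).2)
      (fun z => hτ.ker _ (h3 _ (hτ.mem z)).1),
    fun z => Submodule.sub_mem _ (h3 _ (hτ.mem z)) (h4 _ (hσ.mem z)),
    fun z hz => by simp [hσ.ker z hz.2, hτ.ker z hz.1]⟩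

end H21
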