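import Mathlib
import Cfsg.Agent.Base
import Cfsg.Agent.Lib.ExtFld.SL

/-!
Maximality of the semilinear group of an extension field of prime degree in the linear group.
-/

set_option autoImplicit false
set_option linter.unusedSectionVars false

namespace H21

open Module Cfsg H97

variable {F K V : Type*} [Field F] [Field K] [Algebra F K] [AddCommGroup V] [Module F V]
  [Module K V] [IsScalarTower F K V] {M : Subgroup (V ≃ₗ[F] V)} {l : K} [FiniteDimensional F V]

/-- The quadratic case in dimension four: the shape of the elements of the conjugate groups. -/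
theorem LinHyp.quad_formula (h : LinHyp K M l) {e u : V} (he : e ≠ 0) {W : Submodule F V}
    (hP : MaxPair K M (fun _ => True) (pt F K e) W)
    (hD : finrank F ↥(pt F K e ⊓ W) + 1 = finrank F K) (hDe : pt F K e ⊓ W = F ∙ e)
    (hR : ∀ ρ, InT M (F ∙ e) ρ → ∀ z, ρ z = 0) (hu : u ∈ pt F K e) {π : Dual F V} (hπe : π e = 0)
    (hπu : π u = 1) {φ : V →ₗ[K] K} (hφ : φ e = 0) {x : V} (hx : x ∈ W) (hφx : φ x ≠ 0)
    {σ : V →ₗ[F] V} (hσ : InT M W σ) (hσu : σ u = e) (z : V) :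
    σ z - π ((φ z * (φ x)⁻¹) • e) • x ∈ F ∙ e := by
  have hπ : ∀ y ∈ F ∙ e, π y = 0 := fun y hy => by
    obtain ⟨a, rfl⟩ := Submodule.mem_span_singleton.1 hy
    simp [hπe]
  have huW : u ∉ W := fun h => by
    have := hπ u (hDe ▸ ⟨hu, h⟩)
    rw [hπu] at this; exact one_ne_zero this
  have hxU : x ∉ pt F K e := fun h => by
    obtain ⟨k, rfl⟩ := mem_pt.1 h
    simp [hφ] at hφx
  have heW : e ∈ W := (hDe ▸ Submodule.mem_span_singleton_self e : e ∈ pt F K e ⊓ W).2
  have hτ := h.inT hφ (φ x)⁻¹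
  have hτx : ktv (F := F) φ ((φ x)⁻¹ • e) x = e := by simp [ktv_apply, smul_smul, hφx]
  have h1 := hP.comm_inT hD hσ hτ hu huW hx hxU (by rw [hσu]; exact self_mem_pt e)
    (by rw [hτx]; exact heW)
  rw [hDe] at h1
  have h2 := hR _ h1 z
  simp only [LinearMap.sub_apply, LinearMap.comp_apply, sub_eq_zero] at h2
  obtain ⟨a, ha⟩ := exists_sub_smul_mem (inf_le_right : pt F K e ⊓ W ≤ W)
    (by rw [hD, hP.right.finrank_eq]) hx (fun h => hxU h.1) (hσ.mem z)
  obtain ⟨b, hb⟩ := exists_sub_smul_mem (inf_le_left : pt F K e ⊓ W ≤ pt F K e)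
    (by rw [hD, hP.left.finrank_eq]) hu (fun h => huW h.2) (hτ.mem z)
  have h3 := hτ.ker _ ha.1
  have h4 := hσ.ker _ hb.2
  rw [map_sub, LinearMap.map_smul, hτx, ← h2, sub_eq_zero] at h3
  rw [map_sub, σ.map_smul, hσu, h3, ← sub_smul, smul_eq_zero, sub_eq_zero] at h4
  have h5 := hπ _ (hDe ▸ hb)
  rw [map_sub, π.map_smul, hπu, ktv_apply, smul_smul, smul_eq_mul, mul_one, sub_eq_zero] at h5
  rw [h5, ← h4.resolve_right he, ← hDe]
  exact ha

theorem LinHyp.quad_mem (h : LinHyp K M l) {e u : V} (he : e ≠ 0) {W : Submodule F V}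
    (hP : MaxPair K M (fun _ => True) (pt F K e) W)
    (hD : finrank F ↥(pt F K e ⊓ W) + 1 = finrank F K) (hDe : pt F K e ⊓ W = F ∙ e)
    (hR : ∀ ρ, InT M (F ∙ e) ρ → ∀ z, ρ z = 0) (hu : u ∈ pt F K e) {π : Dual F V} (hπe : π e = 0)
    (hπu : π u = 1) : π (l • e) ≠ 0 ∧
      ∃ b : F, l * (l + algebraMap F K (π (l • e))) = algebraMap F K b := by
  have hπ : ∀ y ∈ F ∙ e, π y = 0 := fun y hy => by
    obtain ⟨a, rfl⟩ := Submodule.mem_span_singleton.1 hy
    simp [hπe]
  have huD : u ∉ F ∙ e := fun h => by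
    have := hπ u h
    rw [hπu] at this; exact one_ne_zero this
  have hker : ∀ k : K, π (k • e) = 0 → ∃ b : F, algebraMap F K b = k := fun k hk => by
    obtain ⟨b, hb⟩ := exists_sub_smul_mem (inf_le_left : pt F K e ⊓ W ≤ pt F K e)
      (by rw [hD, hP.left.finrank_eq]) hu (hDe ▸ huD) (smul_mem_pt k e)
    rw [hDe] at hb
    have h1 := hπ _ hb
    rw [map_sub, π.map_smul, hπu, hk, smul_eq_mul, mul_one, zero_sub, neg_eq_zero] at h1
    rw [h1, zero_smul, sub_zero] at hb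
    obtain ⟨c, hc⟩ := Submodule.mem_span_singleton.1 hb
    exact ⟨c, smul_left_injective K he (by simpa using hc)⟩
  set a := π (l • e) with ha
  have ha0 : a ≠ 0 := fun h0 => by
    obtain ⟨b, hb⟩ := hker l h0
    exact h.notMem b hb
  refine ⟨ha0, ?_⟩
  have hl0 : l ≠ 0 := fun h0 => h.notMem 0 (by simp [h0])
  obtain ⟨x, hx, hxU⟩ := hP.exists_right
  obtain ⟨φ, hφ, hφx⟩ := exists_dual_of_notMem_span (F := K) hxU 1
  have hφD : ∀ y ∈ F ∙ e, φ y = 0 := fun y hy => by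
    obtain ⟨a, rfl⟩ := Submodule.mem_span_singleton.1 hy
    rw [← algebraMap_smul K, map_smul, hφ, smul_zero]
  have hφU : ∀ y ∈ pt F K e, φ y = 0 := fun y hy => by
    obtain ⟨a, rfl⟩ := mem_pt.1 hy
    rw [map_smul, hφ, smul_zero]
  have next : ∀ g ∈ M, g e = e → ∀ W', MaxPair K M (fun _ => True) (pt F K e) W' →
      pt F K e ⊓ W' = F ∙ e → ∀ y ∈ W', φ (g y) ≠ 0 →
      MaxPair K M (fun _ => True) (pt F K e) (W'.map (g : V →ₗ[F] V)) ∧
        pt F K e ⊓ W'.map (g : V →ₗ[F] V) = F ∙ e := by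
    intro g hg hge W' hP' hD' y hy hy'
    have := hP'.of_le hP'.left (hP'.right.map hg) (fun h => hy' (hφU _ (h ▸ ⟨y, hy, rfl⟩))) (by
      rw [hD', Submodule.span_singleton_le_iff_mem]
      exact ⟨self_mem_pt e, e, (hD' ▸ Submodule.mem_span_singleton_self e : e ∈ pt F K e ⊓ W').2,
        hge⟩)
    rwa [hD'] at this
  obtain ⟨g, hg, eg⟩ := h.dil x φ hφx
  have hgx : g x = l • x := by rw [eg, hφx]; module
  obtain ⟨hP', hD'⟩ := next g hg (by simp [eg, hφ]) W hP hDe x hx (by simp [hgx, hφx, hl0])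
  set W' := W.map (g : V →ₗ[F] V) with hW'
  have hx' : l • x ∈ W' := ⟨x, hx, hgx⟩
  have heW : ∀ {W : Submodule F V}, pt F K e ⊓ W = F ∙ e → e ∈ W := fun {W} h =>
    (h ▸ Submodule.mem_span_singleton_self e : e ∈ pt F K e ⊓ W).2
  have huW : ∀ {W : Submodule F V}, pt F K e ⊓ W = F ∙ e → u ∉ W := fun {W} h h' =>
    huD (h ▸ ⟨hu, h'⟩)
  obtain ⟨σ, hσ, hσu⟩ := h.exists_inT hP.right (huW hDe) (heW hDe)
  obtain ⟨σ', hσ', hσu'⟩ := h.exists_inT hP'.right (huW hD') (heW hD')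
  obtain ⟨s, hs, es⟩ := hσ.has
  simp only at es
  have hse : s e = e := by rw [es, hσ.ker e (heW hDe), add_zero]
  have f1 := h.quad_formula he hP hD hDe hR hu hπe hπu hφ hx (by simp [hφx]) hσ hσu (l • x)
  simp only [map_smul, hφx, smul_eq_mul, mul_one, inv_one, ← ha] at f1
  have hμ : φ (s (l • x)) = l + algebraMap F K a := by
    have := hφD _ f1
    rw [map_sub, ← algebraMap_smul K a x, φ.map_smul, hφx, sub_eq_zero] at this
    rw [es, map_add, this, φ.map_smul, hφx]; simp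
  set μ := l + algebraMap F K a with hμdef
  have hμ0 : μ ≠ 0 := fun h0 => h.notMem (-a) (by rw [map_neg]; linear_combination -h0)
  obtain ⟨hP'', hD''⟩ := next s hs hse W' hP' hD' _ hx' (hμ ▸ hμ0)
  have hs' : ∀ y, s⁻¹ y = y - σ y := fun y => s.injective (by
    rw [le_apply_inv, es, map_sub, hσ.sq]; simp)
  have f2 := h.quad_formula he hP' (by rw [hD', ← hDe, hD]) hD' hR hu hπe hπu hφ hx'
    (by simp [hφx, hl0]) hσ' hσu' x
  have f3 := h.quad_formula he hP'' (by rw [hD'', ← hDe, hD]) hD'' hR hu hπe hπu hφ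
    (x := s (l • x)) ⟨_, hx', rfl⟩ (hμ ▸ hμ0) (hσ'.conj hs) (by
      rw [cjm_apply, hs', hσu, map_sub, hσu', hσ'.ker e (heW hD'), sub_zero, hse]) x
  rw [cjm_apply, hs', hσ.ker x hx, sub_zero, hμ, hφx, one_mul] at f3
  rw [φ.map_smul, hφx, smul_eq_mul, mul_one, one_mul] at f2
  obtain ⟨c, hc⟩ := Submodule.mem_span_singleton.1 f2
  have f4 : s (σ' x) - π (l⁻¹ • e) • s (l • x) ∈ F ∙ e := by
    rw [← map_smul, ← map_sub, ← hc, map_smul, hse]
    exact Submodule.smul_mem _ _ (Submodule.mem_span_singleton_self e)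
  have f5 := hφD _ (Submodule.sub_mem _ f3 f4)
  rw [show s (σ' x) - π (μ⁻¹ • e) • s (l • x) - (s (σ' x) - π (l⁻¹ • e) • s (l • x)) =
    π ((l⁻¹ - μ⁻¹) • e) • s (l • x) by rw [sub_smul, map_sub]; module,
    ← algebraMap_smul K (π _) (s _), φ.map_smul, hμ, smul_eq_mul, mul_eq_zero, map_eq_zero] at f5
  obtain ⟨b, hb⟩ := hker _ (f5.resolve_right hμ0)
  have h6 : algebraMap F K b * (l * μ) = algebraMap F K a := by
    rw [hb]; field_simp; rw [hμdef]; ring
  have hb0 : b ≠ 0 := by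
    rintro rfl
    rw [map_zero, zero_mul, eq_comm, map_eq_zero] at h6
    exact ha0 h6
  refine ⟨a / b, ?_⟩
  rw [map_div₀, eq_div_iff (by simpa using hb0), ← h6]; ring

theorem LinHyp.two_of_quad (h : LinHyp K M l) {e : V} (he : e ≠ 0) {W : Submodule F V}
    (hP : MaxPair K M (fun _ => True) (pt F K e) W)
    (hD : finrank F ↥(pt F K e ⊓ W) + 1 = finrank F K) (hDe : pt F K e ⊓ W = F ∙ e)
    (hR : ∀ ρ, InT M (F ∙ e) ρ → ∀ z, ρ z = 0) (c : F) : c = 0 ∨ c = 1 := by
  by_contra hc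
  push Not at hc
  obtain ⟨u, hu, huW⟩ := hP.exists_left
  have huD : u ∉ F ∙ e := fun h => huW (hDe ▸ h : u ∈ pt F K e ⊓ W).2
  obtain ⟨π, hπe, hπu⟩ := exists_dual_of_notMem_span huD (1 : F)
  obtain ⟨ha, b, hb⟩ := h.quad_mem he hP hD hDe hR hu hπe hπu
  obtain ⟨-, b', hb'⟩ := h.quad_mem he hP hD hDe hR ((pt F K e).smul_mem c⁻¹ hu) (π := c • π)
    (by simp [hπe]) (by simp [hπu, hc.1])
  set a := π (l • e)
  have h1 : algebraMap F K (a * (c - 1)) ≠ 0 := by
    simpa [sub_eq_zero] using ⟨ha, hc.2⟩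
  refine h.notMem ((b' - b) / (a * (c - 1))) ?_
  rw [map_div₀, div_eq_iff h1]
  simp only [LinearMap.smul_apply, smul_eq_mul, map_mul, map_sub, map_one] at hb' ⊢
  linear_combination hb - hb'

/-- The Frobenius map of a plane over the field with four elements. -/
theorem exists_frob (hF : ∀ c : F, c = 0 ∨ c = 1) (h2 : (2 : K) = 0) (h4 : ∀ k : K, k ^ 4 = k)
    (hH : NK F K V ⊓ SLV F V ≤ M) {a b : V} {α β : V →ₗ[K] K} (h1 : α a = 1) (h1' : α b = 0)
    (h3 : β a = 0) (h3' : β b = 1) (hab : ∀ z, z = α z • a + β z • b) :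
    ∃ g ∈ M, ∀ z, g z = α z ^ 2 • a + β z ^ 2 • b := by
  let f : V →ₗ[F] V :=
    { toFun := fun z => α z ^ 2 • a + β z ^ 2 • b
      map_add' := fun x y => by
        simp only [map_add]
        match_scalars
        · linear_combination (α x * α y) * h2
        · linear_combination (β x * β y) * h2
      map_smul' := fun c x => by rcases hF c with rfl | rfl <;> simp }
  have hf : ∀ z, f z = α z ^ 2 • a + β z ^ 2 • b := fun _ => rfl
  have hinv : Function.Involutive f := fun z => by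
    simp only [hf, map_add, map_smul, h1, h1', h3, h3', smul_eq_mul, mul_one, mul_zero, add_zero,
      zero_add, ← pow_mul, h4]
    exact (hab z).symm
  let g := LinearEquiv.ofInvolutive f hinv
  have hg : ∀ z, g z = α z ^ 2 • a + β z ^ 2 • b := fun _ => rfl
  refine ⟨g, hH ⟨⟨fun k => ⟨k ^ 2, fun x => ?_⟩, fun k => ⟨k ^ 2, fun x => ?_⟩⟩, mem_SLV.2 ?_⟩, hg⟩
  · simp only [hg, map_smul, smul_eq_mul]; module
  · simp only [hg, map_smul, smul_eq_mul, mul_pow, ← pow_mul, h4]; module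
  · exact (hF _).resolve_left (LinearEquiv.isUnit_det' g).ne_zero

theorem LinHyp.SLV_le_of_rank_one (hr : (finrank F K).Prime) (hm : finrank F K < finrank F V)
    (h : LinHyp K M l) (hF : ∀ c : F, c = 0 ∨ c = 1) {ρ : V →ₗ[F] V} {a : V}
    (h1 : Has M (fun x => x + ρ x)) (ha : a ≠ 0) (h2 : ∀ x, ρ x ∈ F ∙ a) (h3 : ρ a = 0)
    (h4 : ∃ x, ρ x ≠ 0) : SLV F V ≤ M := by
  obtain ⟨ψ, hψ⟩ := exists_dual_of_range ha h2
  obtain ⟨x, hx⟩ := h4
  refine h.SLV_le hr hm ha (ψ := ψ) ⟨x, fun h0 => hx (by rw [hψ, h0, zero_smul])⟩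
    (by simpa [h3, ha] using (hψ a).symm) fun c => ?_
  rcases hF c with rfl | rfl
  · simpa using hasT_zero_right a
  · exact h1.congr fun x => by simp [hψ]

theorem LinHyp.SLV_le_four (hr : (finrank F K).Prime) (hm : finrank F K < finrank F V)
    (h : LinHyp K M l) (hH : NK F K V ⊓ SLV F V ≤ M) (hF : ∀ c : F, c = 0 ∨ c = 1)
    (hK : ∀ k : K, ∃ c c' : F, k = algebraMap F K c * l + algebraMap F K c') {a b : V}
    (ha : a ≠ 0) (hb : b ∉ pt F K a) (hV : ∀ z, z ∈ K ∙ a ⊔ K ∙ b) {W : Submodule F V}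
    (hW : Good K M (fun _ => True) W) (haW : a ∈ W) (hbW : b ∈ W)
    (hW' : ∀ y ∈ W, ∃ c c' : F, y = c • a + c' • b) : SLV F V ≤ M := by
  have h2 : (2 : K) = 0 := by
    rcases hF (1 + 1) with h | h
    · have := congrArg (algebraMap F K) h
      rw [map_add, map_one, map_zero] at this
      linear_combination this
    · simp at h
  have hl0 : l ≠ 0 := fun h0 => h.notMem 0 (by simp [h0])
  have hl1 : l - 1 ≠ 0 := fun h0 => h.notMem 1 (by rw [map_one]; linear_combination -h0)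
  have hl : l ^ 2 = l + 1 := by
    obtain ⟨c, c', e⟩ := hK (l ^ 2)
    rcases hF c with rfl | rfl <;> rcases hF c' with rfl | rfl <;>
      simp only [map_zero, map_one, zero_mul, one_mul, add_zero, zero_add] at e
    · exact absurd (pow_eq_zero_iff two_ne_zero |>.1 e) hl0
    · exact absurd (pow_eq_zero_iff two_ne_zero |>.1
        (show (l - 1) ^ 2 = 0 by linear_combination e + (1 - l) * h2)) hl1
    · exact absurd (show l * (l - 1) = 0 by linear_combination e) (mul_ne_zero hl0 hl1)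
    · exact e
  have h4 : ∀ k : K, k ^ 4 = k := fun k => by
    obtain ⟨c, c', rfl⟩ := hK k
    rcases hF c with rfl | rfl <;> rcases hF c' with rfl | rfl <;>
      simp only [map_zero, map_one, zero_mul, one_mul, add_zero, zero_add] <;> grind
  have hb0 : b ≠ 0 := by rintro rfl; simp at hb
  have hab : a ∉ K ∙ b := fun h => hb (pt_eq_of_mem (F := F) h ha ▸ self_mem_pt b)
  obtain ⟨α, hα, hα'⟩ := exists_dual_of_notMem_span hab (1 : K)
  obtain ⟨β, hβ, hβ'⟩ := exists_dual_of_notMem_span (F := K) hb (1 : K)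
  have hz : ∀ z, z = α z • a + β z • b := fun z => by
    obtain ⟨x, hx, y, hy, rfl⟩ := Submodule.mem_sup.1 (hV z)
    obtain ⟨k, rfl⟩ := Submodule.mem_span_singleton.1 hx
    obtain ⟨k', rfl⟩ := Submodule.mem_span_singleton.1 hy
    simp [hα, hα', hβ, hβ']
  have hspan : ∀ T : Submodule F V, a ∈ T → b ∈ T → l • a ∈ T → l • b ∈ T → ∀ z, z ∈ T := by
    intro T t1 t2 t3 t4 z
    obtain ⟨c, c', e⟩ := hK (α z)
    obtain ⟨d, d', e'⟩ := hK (β z)
    rw [hz z, e, e', add_smul, add_smul, ← algebraMap_smul', ← algebraMap_smul', algebraMap_smul,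
      algebraMap_smul]
    exact T.add_mem (T.add_mem (T.smul_mem _ t3) (T.smul_mem _ t1))
      (T.add_mem (T.smul_mem _ t4) (T.smul_mem _ t2))
  have hla : l • a ∉ W := fun h' => by
    obtain ⟨c, c', e⟩ := hW' _ h'
    have := congrArg α e
    rw [← algebraMap_smul K c, ← algebraMap_smul K c'] at this
    simp only [map_add, map_smul, hα, hα', smul_eq_mul, mul_one, mul_zero, add_zero] at this
    exact h.notMem c this.symm
  obtain ⟨σ, hσ, hσa⟩ := h.exists_inT hW hla hbW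
  have sa := hσ.ker a haW
  have sb := hσ.ker b hbW
  obtain ⟨c, c', e⟩ := hW' _ (hσ.mem (l • b))
  have rk : ∀ (ρ : V →ₗ[F] V) (v : V), ρ a ∈ F ∙ v → ρ b ∈ F ∙ v → ρ (l • a) ∈ F ∙ v →
      ρ (l • b) ∈ F ∙ v → ∀ z, ρ z ∈ F ∙ v := fun ρ v => hspan ((F ∙ v).comap ρ)
  have ms := @Submodule.mem_span_singleton_self F V _ _ _
  rcases hF c with rfl | rfl
  · exact h.SLV_le_of_rank_one hr hm hF hσ.has hb0 (rk σ b (by simp [sa]) (by simp [sb])
      (hσa ▸ ms b) (by rw [e, zero_smul, zero_add]; exact Submodule.smul_mem _ _ (ms b))) sb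
      ⟨_, hσa ▸ hb0⟩
  obtain ⟨s, hs, es⟩ := hσ.has
  simp only at es
  have s1 : s a = a := by simp [es, sa]
  have s2 : s b = b := by simp [es, sb]
  have s3 : s (l • a) = l • a + b := by rw [es, hσa]
  rcases hF c' with rfl | rfl
  · obtain ⟨g, hg, eg⟩ := exists_frob hF h2 h4 hH hα' hα hβ hβ' hz
    have s4 : s (l • b) = l • b + a := by rw [es, e]; simp
    have g1 : g a = a := by simp [eg, hα', hβ]
    have g2 : g b = b := by simp [eg, hα, hβ']
    have g3 : g (l • a) = l • a + a := by simp [eg, hα', hβ, hl, add_smul]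
    have g4 : g (l • b) = l • b + b := by simp [eg, hα, hβ', hl, add_smul]
    have h0 : a + b ≠ 0 := fun h0 => by simpa [hα, hα'] using congrArg α h0
    let ρ : V →ₗ[F] V := ((g * s : V ≃ₗ[F] V) : V →ₗ[F] V) - LinearMap.id
    have hρ : ∀ z, ρ z = g (s z) - z := fun _ => rfl
    have r3 : ρ (l • a) = a + b := by rw [hρ, s3, map_add, g3, g2]; abel
    have r4 : ρ (l • b) = a + b := by rw [hρ, s4, map_add, g4, g1]; abel
    exact h.SLV_le_of_rank_one hr hm hF (ρ := ρ)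
      ((has_of_mem (M.mul_mem hg hs)).congr fun x => by simp [hρ]) h0
      (rk ρ _ (by simp [hρ, s1, g1]) (by simp [hρ, s2, g2]) (r3 ▸ ms _) (r4 ▸ ms _))
      (by simp [hρ, s1, s2, g1, g2]) ⟨_, r3 ▸ h0⟩
  · have hl3 : l * l ^ 2 = 1 := by clear * - hl h2; grind
    obtain ⟨g, hg, eg⟩ := exists_frob hF h2 h4 hH (a := l • a) (b := l • b) (α := l ^ 2 • α)
      (β := l ^ 2 • β) (by simp [hα', hl3]) (by simp [hα]) (by simp [hβ]) (by simp [hβ', hl3])
      (fun z => by
        conv_lhs => rw [hz z]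
        simp only [LinearMap.smul_apply, smul_eq_mul]
        match_scalars <;> (try simp only [smul_eq_mul, mul_one]) <;> (clear * - hl h2; grind))
    simp only [LinearMap.smul_apply, smul_eq_mul] at eg
    have s4 : s (l • b) = l • b + a + b := by rw [es, e]; simp [add_assoc]
    have g1 : g a = l • a + a := by
      rw [eg, hα', hβ]; match_scalars <;> (try simp only [smul_eq_mul, mul_one]) <;> (clear * - hl h2; grind)
    have g2 : g b = l • b + b := by
      rw [eg, hα, hβ']; match_scalars <;> (try simp only [smul_eq_mul, mul_one]) <;> (clear * - hl h2; grind)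
    have g3 : g (l • a) = l • a := by
      rw [eg, map_smul, map_smul, hα', hβ]; match_scalars <;> (try simp only [smul_eq_mul, mul_one]) <;> (clear * - hl h2; grind)
    have g4 : g (l • b) = l • b := by
      rw [eg, map_smul, map_smul, hα, hβ']; match_scalars <;> (try simp only [smul_eq_mul, mul_one]) <;> (clear * - hl h2; grind)
    obtain ⟨t, ht, et⟩ := h.tv (l • a + b) (α + l • β) (by
      simp only [LinearMap.add_apply, LinearMap.smul_apply, map_add, map_smul, hα, hα', hβ, hβ',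
        smul_eq_mul]
      clear * - hl h2; grind)
    simp only [LinearMap.add_apply, LinearMap.smul_apply, smul_eq_mul] at et
    have h0 : l • a + b ≠ 0 := fun h0 => by simpa [hβ, hβ'] using congrArg β h0
    let ρ : V →ₗ[F] V := ((t * s * g * s : V ≃ₗ[F] V) : V →ₗ[F] V) - LinearMap.id
    have hρ : ∀ z, ρ z = t (s (g (s z))) - z := fun _ => rfl
    have r1 : ρ a = 0 := by
      simp only [hρ, s1, s2, s3, s4, g1, g2, g3, g4, map_add, et, map_smul, hα, hα', hβ, hβ',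
        smul_eq_mul]
      match_scalars <;> (try simp only [smul_eq_mul, mul_one]) <;> (clear * - hl h2; grind)
    have r2 : ρ b = l • a + b := by
      simp only [hρ, s1, s2, s3, s4, g1, g2, g3, g4, map_add, et, map_smul, hα, hα', hβ, hβ',
        smul_eq_mul]
      match_scalars <;> (try simp only [smul_eq_mul, mul_one]) <;> (clear * - hl h2; grind)
    have r3 : ρ (l • a) = l • a + b := by
      simp only [hρ, s1, s2, s3, s4, g1, g2, g3, g4, map_add, et, map_smul, hα, hα', hβ, hβ',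
        smul_eq_mul]
      match_scalars <;> (try simp only [smul_eq_mul, mul_one]) <;> (clear * - hl h2; grind)
    have r4 : ρ (l • b) = l • a + b := by
      simp only [hρ, s1, s2, s3, s4, g1, g2, g3, g4, map_add, et, map_smul, hα, hα', hβ, hβ',
        smul_eq_mul]
      match_scalars <;> (try simp only [smul_eq_mul, mul_one]) <;> (clear * - hl h2; grind)
    exact h.SLV_le_of_rank_one hr hm hF (ρ := ρ)
      ((has_of_mem (M.mul_mem (M.mul_mem (M.mul_mem ht hs) hg) hs)).congr fun x => by simp [hρ]) h0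
      (rk ρ _ (by simp [r1]) (r2 ▸ ms _) (r3 ▸ ms _) (r4 ▸ ms _))
      (by rw [map_add, r2, r3]; match_scalars <;> (try simp only [smul_eq_mul, mul_one]) <;> (clear * - hl h2; grind)) ⟨_, r3 ▸ h0⟩

theorem SLV_le_of_not_NK [Finite K] (hr : (finrank F K).Prime) (hm : finrank F K < finrank F V)
    (hH : NK F K V ⊓ SLV F V ≤ M) {g : V ≃ₗ[F] V} (hg : g ∈ M) (hg' : g ∉ NK F K V) :
    SLV F V ≤ M := by
  have : FiniteDimensional F K := .of_finrank_pos hr.pos
  obtain ⟨l, h⟩ := linHyp_of hr hH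
  obtain ⟨d₀, hd₀, hne⟩ : ∃ d, d ≠ 0 ∧ (pt F K d).map (g : V →ₗ[F] V) ≠ pt F K (g d) := by
    by_contra hc
    push Not at hc
    exact hg' (mem_NK_of_map_pt (exists_notMem_pt hm) hc)
  have hgd : g d₀ ≠ 0 := by simpa using hd₀
  obtain ⟨d, W, hd, -, hP⟩ := exists_maxPair (S := fun _ => True)
    ((good_pt hd₀ trivial).map hg) (good_pt hgd trivial) hne
    (Submodule.ne_bot_iff _ |>.2 ⟨g d₀, ⟨⟨d₀, self_mem_pt _, rfl⟩, self_mem_pt _⟩, hgd⟩)
  obtain ⟨x, hx, hxU⟩ := hP.exists_right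
  obtain ⟨u, hu, huW⟩ := hP.exists_left
  obtain ⟨φ, h1, h2⟩ := exists_dual_of_notMem_span (F := K) hxU 1
  have hD := hP.codim_one hr hd (φ.restrictScalars F) (fun k => by simp [h1]) hx (by simp [h2])
    fun k => by
      obtain ⟨t, ht, e⟩ := h.tv (k • d) φ (by simp [h1])
      exact ⟨t, ht, fun y _ => by rw [e, smul_smul, mul_comm]; rfl⟩
  obtain ⟨e, he, he0⟩ := Submodule.exists_mem_ne_zero_of_ne_bot hP.ne_bot
  have main : ∀ (φ' : V →ₗ[K] K) (y e' : V), φ' d = 0 → φ' y = 1 → φ' x • e ∈ W →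
      e' ∈ pt F K d ⊓ W → e' ∉ F ∙ (φ' x • e) → SLV F V ≤ M := by
    intro φ' y e' h3 h4 h5 h6 h7
    obtain ⟨k, rfl⟩ := mem_pt.1 he.1
    obtain ⟨σ, hσ, hσu⟩ := h.exists_inT hP.right huW h6.2
    have hτ := h.inT h3 k
    obtain ⟨k', hk'⟩ := mem_pt.1 (pt_eq_of_mem he.1 he0 ▸ hu : u ∈ pt F K (k • d))
    refine h.SLV_le_of_inT hr hm hP hD (hP.comm_inT hD hσ hτ hu huW hx hxU (hσu ▸ h6.1) h5)
      ⟨k' • y, fun h0 => h7 ?_⟩
    obtain ⟨a, ha⟩ := exists_sub_smul_mem (inf_le_right : pt F K d ⊓ W ≤ W)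
      (by rw [hD, hP.right.finrank_eq]) hx (fun h => hxU h.1) (hσ.mem (k' • y))
    have h8 := hτ.ker _ ha.1
    rw [map_sub, LinearMap.map_smul, sub_eq_zero] at h8
    rw [LinearMap.sub_apply, LinearMap.comp_apply, LinearMap.comp_apply, h8, ktv_apply φ' _ (k' • y),
      φ'.map_smul, h4, smul_eq_mul, mul_one, hk', hσu, sub_eq_zero] at h0
    exact Submodule.mem_span_singleton.2 ⟨a, h0.symm⟩
  by_cases hV : ∀ z, z ∈ K ∙ d ⊔ K ∙ x
  swap
  · push Not at hV
    obtain ⟨y, hy⟩ := hV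
    obtain ⟨φ', h3, h4, h5⟩ := exists_dual_of_notMem_sup _ hy (1 : K)
    exact main φ' y e (h3 d (Submodule.mem_span_singleton_self d)) h5 (by simp [h4]) he
      (by simpa [h4] using he0)
  by_cases hDe : pt F K d ⊓ W ≤ F ∙ e
  swap
  · obtain ⟨e', h3, h4⟩ := SetLike.not_le_iff_exists.1 hDe
    exact main φ x e' h1 h2 (by simpa [h2] using he.2) h3 (by simpa [h2] using h4)
  replace hDe : pt F K d ⊓ W = F ∙ e :=
    le_antisymm hDe ((Submodule.span_singleton_le_iff_mem _ _).2 he)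
  by_cases hR : ∃ ρ, InT M (F ∙ e) ρ ∧ ∃ z, ρ z ≠ 0
  · obtain ⟨ρ, h3, h4⟩ := hR
    exact h.SLV_le_of_inT hr hm hP hD (hDe ▸ h3) h4
  push Not at hR
  have hpt := pt_eq_of_mem he.1 he0
  have hKe : K ∙ e = K ∙ d := Submodule.restrictScalars_injective F K V hpt
  rw [← hpt] at hP hD hDe hxU
  have hle : l • e ∉ pt F K e ⊓ W := fun h' => by
    rw [hDe] at h'
    obtain ⟨c, hc⟩ := Submodule.mem_span_singleton.1 h'
    exact h.notMem c (smul_left_injective K he0 (by simpa using hc))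
  refine h.SLV_le_four hr hm hH (h.two_of_quad he0 hP hD hDe hR) (fun k => ?_) he0 hxU
    (hKe ▸ hV) hP.right he.2 hx fun y hy => ?_
  · obtain ⟨c, hc⟩ := exists_sub_smul_mem (inf_le_left : pt F K e ⊓ W ≤ pt F K e)
      (by rw [hD, hP.left.finrank_eq]) (smul_mem_pt l e) hle (smul_mem_pt k e)
    rw [hDe] at hc
    obtain ⟨c', hc'⟩ := Submodule.mem_span_singleton.1 hc
    refine ⟨c, c', smul_left_injective K he0 ?_⟩
    simp only [add_smul, ← algebraMap_smul', algebraMap_smul, hc']; abel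
  · obtain ⟨c, hc⟩ := exists_sub_smul_mem (inf_le_right : pt F K e ⊓ W ≤ W)
      (by rw [hD, hP.right.finrank_eq]) hx (fun h => hxU h.1) hy
    rw [hDe] at hc
    obtain ⟨c', hc'⟩ := Submodule.mem_span_singleton.1 hc
    exact ⟨c', c, by rw [hc']; abel⟩

end H21
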