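import Mathlib
import Cfsg.Agent.Base
import Cfsg.Agent.Lib.ExtFld.SL2

/-!
From field subalgebras of the matrix algebra to extension field structures; maximality of the
normaliser of a field of prime degree in the general and the special linear group.
-/

set_option autoImplicit false
set_option linter.unusedSectionVars false

namespace H21

open Module Cfsg H97 Matrix

universe u

theorem normalizer_eq_pull_NK {ι : Type} [Fintype ι] [DecidableEq ι] {F E : Type*} [Field F]
    [Field E] [Algebra F E] [Module E (ι → F)] [IsScalarTower F E (ι → F)] [FiniteDimensional F E]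
    {K : Subalgebra F (Matrix ι ι F)} (h1 : ∀ k ∈ K, ∃ e : E, ∀ v, k *ᵥ v = e • v)
    (h2 : ∀ e : E, ∃ k ∈ K, ∀ v, k *ᵥ v = e • v) :
    Geo.subalgebraNormalizer K = pull (NK F E (ι → F)) := by
  have ext : ∀ {A B : Matrix ι ι F}, (∀ v, A *ᵥ v = B *ᵥ v) → A = B := fun h =>
    Matrix.toLin'.injective (LinearMap.ext h)
  ext g
  have e1 : ∀ v, (g : Matrix ι ι F) *ᵥ (((g⁻¹ : GL ι F) : Matrix ι ι F) *ᵥ v) = v := fun v => by
    rw [mulVec_mulVec, ← Units.val_mul, mul_inv_cancel, Units.val_one, one_mulVec]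
  have e2 : ∀ v, ((g⁻¹ : GL ι F) : Matrix ι ι F) *ᵥ ((g : Matrix ι ι F) *ᵥ v) = v := fun v => by
    rw [mulVec_mulVec, ← Units.val_mul, inv_mul_cancel, Units.val_one, one_mulVec]
  rw [mem_pull]
  constructor
  · intro hg
    refine mem_NK_of fun e => ?_
    obtain ⟨k, hk, he⟩ := h2 e
    obtain ⟨e', he'⟩ := h1 _ ((hg k).1 hk)
    refine ⟨e', fun x => ?_⟩
    rw [toLE_apply, toLE_apply, ← he', ← he, ← mulVec_mulVec, ← mulVec_mulVec, e2]
  · rintro ⟨h3, h4⟩ k
    simp only [toLE_apply] at h3 h4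
    constructor
    · intro hk
      obtain ⟨e, he⟩ := h1 k hk
      obtain ⟨e', he'⟩ := h3 e
      obtain ⟨k', hk', h5⟩ := h2 e'
      convert hk'
      exact ext fun v => by rw [← mulVec_mulVec, ← mulVec_mulVec, he, he', e1, h5]
    · intro hk
      obtain ⟨e, he⟩ := h1 _ hk
      obtain ⟨e', he'⟩ := h4 e
      obtain ⟨k', hk', h5⟩ := h2 e'
      convert hk'
      refine ext fun v => ?_
      have := he ((g : Matrix ι ι F) *ᵥ v)
      rw [← mulVec_mulVec, ← mulVec_mulVec, e2, ← he'] at this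
      rw [← e2 (k *ᵥ v), this, e2, h5]

/-- A field subalgebra of the matrix algebra makes the natural module a vector space over a field
`E`, and its normaliser is the group of the `E`-semilinear maps. -/
theorem fieldSub_elim {ι : Type} [Fintype ι] [DecidableEq ι] {F : Type u} [Field F] [Finite F]
    {r : ℕ} {K : Subalgebra F (Matrix ι ι F)} (hK : Geo.IsFieldSubalgebra r K) [Nonempty ι]
    {p : Prop} (h : ∀ (E : Type u) [Field E] [Finite E] [Algebra F E] [Module E (ι → F)]
      [IsScalarTower F E (ι → F)], finrank F E = r →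
      (∀ k ∈ K, ∃ e : E, ∀ v, k *ᵥ v = e • v) → (∀ e : E, ∃ k ∈ K, ∀ v, k *ᵥ v = e • v) →
      Geo.subalgebraNormalizer K = pull (NK F E (ι → F)) → p) : p := by
  have hf : IsField K :=
    ⟨⟨0, 1, zero_ne_one⟩, fun x y => Subtype.ext (hK.comm _ x.2 _ y.2), fun {x} hx => by
      obtain ⟨y, hy, e⟩ := hK.inv _ x.2 (fun h => hx (Subtype.ext h))
      exact ⟨⟨y, hy⟩, Subtype.ext e⟩⟩
  letI := hf.toField
  letI : Module K (ι → F) :=
    Module.compHom (ι → F) ((Matrix.toLinAlgEquiv'.toAlgHom.comp K.val).toRingHom :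
      K →+* Module.End F (ι → F))
  have hsmul : ∀ (k : K) (v : ι → F), k • v = (k : Matrix ι ι F) *ᵥ v := fun k v => rfl
  haveI inst : IsScalarTower F K (ι → F) := ⟨fun c k v => by
    rw [hsmul, hsmul, Subalgebra.coe_smul, Matrix.smul_mulVec]⟩
  have : Finite K := inferInstance
  have h1 : ∀ k ∈ K, ∃ e : K, ∀ v, k *ᵥ v = e • v := fun k hk => ⟨⟨k, hk⟩, fun v => rfl⟩
  have h2 : ∀ e : K, ∃ k ∈ K, ∀ v, k *ᵥ v = e • v := fun e => ⟨e, e.2, fun v => rfl⟩
  exact @h K _ _ _ _ inst hK.finrank_eq h1 h2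
    (@normalizer_eq_pull_NK ι _ _ F K _ _ _ _ inst _ K h1 h2)

variable {F K V : Type*} [Field F] [Field K] [Algebra F K] [AddCommGroup V] [Module F V]
  [Module K V] [IsScalarTower F K V] [FiniteDimensional F V]

theorem exists_notMem_range (hr : 1 < finrank F K) : ∃ l : K, ∀ a : F, algebraMap F K a ≠ l := by
  by_contra hc
  push Not at hc
  have : (⊥ : Subalgebra F K) = ⊤ := eq_top_iff.2 fun l _ => Algebra.mem_bot.2 (hc l)
  rw [Subalgebra.bot_eq_top_iff_finrank_eq_one] at this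
  omega

/-- An `F`-transvection is not semilinear. -/
theorem not_mem_NK_of_transv (hr : 1 < finrank F K) (hm : finrank F K < finrank F V)
    {g : V ≃ₗ[F] V} {u : V} {φ : Dual F V} (hu : u ≠ 0) (hφ : ∃ x, φ x ≠ 0) (hφu : φ u = 0)
    (hg : ∀ x, g x = x + φ x • u) : g ∉ NK F K V := by
  intro h
  obtain ⟨l, hl⟩ := exists_notMem_range hr
  have h1 : ∀ y, y ∉ pt F K u → φ y = 0 → ∀ k : K, φ (k • y) = 0 := fun y hy h0 k => by
    have h2 : g (k • y) ∈ pt F K (g y) := map_pt_of_NK h y ▸ ⟨_, smul_mem_pt k y, rfl⟩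
    rw [hg, hg, h0, zero_smul, add_zero] at h2
    by_contra h3
    have h4 : u ∈ pt F K y := by
      have := (pt F K y).smul_mem (φ (k • y))⁻¹ ((pt F K y).sub_mem h2 (smul_mem_pt k y))
      simpa [h3] using this
    exact hy (pt_eq_of_mem h4 hu ▸ self_mem_pt y)
  obtain ⟨b, hb⟩ := exists_notMem_pt hm u
  obtain ⟨x, hx⟩ := hφ
  -- every vector outside the point of `u` is killed
  have h2 : ∀ y, y ∉ pt F K u → φ y = 0 := fun y hy => by
    by_contra h0
    have hy0 : y ≠ 0 := by rintro rfl; simp at hy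
    set a := φ (l • y) / φ y
    have h3 : l - algebraMap F K a ≠ 0 := fun h => hl a (by linear_combination -h)
    have h4 : φ ((l - algebraMap F K a) • y) = 0 := by
      rw [sub_smul, algebraMap_smul, map_sub, φ.map_smul]; simp [a, h0]
    have := h1 _ (fun h => hy (by simpa [h3] using smul_mem_pt' (l - algebraMap F K a)⁻¹ h)) h4
      (l - algebraMap F K a)⁻¹
    exact h0 (by simpa [h3] using this)
  by_cases hxu : x ∈ pt F K u
  · have := h2 (x + b) fun h => hb (by simpa using (pt F K u).sub_mem h hxu)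
    rw [map_add, h2 b hb, add_zero] at this
    exact hx this
  · exact hx (h2 x hxu)

theorem exists_SLV_not_NK (hr : 1 < finrank F K) (hm : finrank F K < finrank F V) :
    ∃ g ∈ SLV F V, g ∉ NK F K V := by
  obtain ⟨u, hu⟩ := exists_notMem_pt hm 0
  have hu0 : u ≠ 0 := by rintro rfl; simp at hu
  obtain ⟨b, hb⟩ := exists_notMem_pt hm u
  obtain ⟨φ, h1, h2⟩ := exists_dual_of_notMem (pt F K u) hb (1 : F)
  obtain ⟨g, hg, e⟩ := hasT_SLV (h1 u (self_mem_pt u))
  exact ⟨g, hg, not_mem_NK_of_transv hr hm hu0 ⟨b, by simp [h2]⟩ (h1 u (self_mem_pt u)) e⟩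

theorem isMaximalIn_NK_SLV [Finite K] (hr : (finrank F K).Prime) (hm : finrank F K < finrank F V) :
    Geo.IsMaximalIn (SLV F V) (NK F K V ⊓ SLV F V) := by
  obtain ⟨g, hg, hg'⟩ := exists_SLV_not_NK hr.one_lt hm
  exact isMaximalIn_of inf_le_right (fun h => hg' (h hg).1) fun M h1 h2 ⟨g, h3, h4⟩ =>
    SLV_le_of_not_NK hr hm h1 h3 fun h => h4 ⟨h, h2 h3⟩

theorem exists_NK_det [Finite K] (hm : finrank F K < finrank F V) (c : F) (hc : c ≠ 0) :
    ∃ g ∈ NK F K V, LinearMap.det (g : V →ₗ[F] V) = c := by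
  have : Finite F := Finite.of_injective _ (algebraMap F K).injective
  have : FiniteDimensional K V := Module.Finite.of_restrictScalars_finite F K V
  obtain ⟨l, hl⟩ := FiniteField.norm_surjective F K c
  have hl0 : l ≠ 0 := by
    rintro rfl
    exact hc (by rw [← hl, Algebra.norm_zero])
  obtain ⟨y, hy⟩ := exists_notMem_pt hm 0
  have hy0 : y ≠ 0 := by rintro rfl; simp at hy
  obtain ⟨φ, hφ⟩ := exists_dual_of_ne_zero (F := K) hy0 1
  let f : V →ₗ[K] V := LinearMap.transvection ((l - 1) • φ) y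
  have hd : LinearMap.det f = l := by simp [f, LinearMap.transvection.det, hφ]
  let g := LinearMap.equivOfDetNeZero f (by rwa [hd])
  exact ⟨res g, res_mem_NK g, by rw [det_res, show (g : V →ₗ[K] V) = f from rfl, hd, hl]⟩

theorem isMaximalIn_NK_top [Finite K] (hr : (finrank F K).Prime) (hm : finrank F K < finrank F V) :
    Geo.IsMaximalIn ⊤ (NK F K V) := by
  obtain ⟨g, -, hg'⟩ := exists_SLV_not_NK hr.one_lt hm
  refine isMaximalIn_of le_top (fun h => hg' (h trivial)) fun M h1 _ ⟨g, h3, h4⟩ a _ => ?_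
  have h5 := SLV_le_of_not_NK hr hm (inf_le_left.trans h1) h3 h4
  obtain ⟨b, hb, e⟩ := exists_NK_det hm _ (LinearEquiv.isUnit_det' a).ne_zero
  have : a * b⁻¹ ∈ SLV F V := by
    have hb0 := (LinearEquiv.isUnit_det' b).ne_zero
    have h6 : LinearMap.det ((a * b⁻¹ : V ≃ₗ[F] V) : V →ₗ[F] V) * LinearMap.det (b : V →ₗ[F] V) =
        LinearMap.det (a : V →ₗ[F] V) := by
      rw [← map_mul]; congr 1; ext x; simp
    rw [mem_SLV]
    exact mul_right_cancel₀ hb0 (by rw [h6, e, one_mul])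
  simpa using M.mul_mem (h5 this) (h1 hb)

/-- The normaliser of a field subalgebra of prime degree is maximal in `GL` and in `SL`. -/
theorem fieldSub_maximal {ι : Type} [Fintype ι] [DecidableEq ι] {F : Type u} [Field F] [Finite F]
    {r : ℕ} (hr : r.Prime) (hlt : r < Fintype.card ι) {K : Subalgebra F (Matrix ι ι F)}
    (hK : Geo.IsFieldSubalgebra r K) : IsCoatom (Geo.subalgebraNormalizer K) ∧
      Geo.IsMaximalIn (Geo.specialLinear ι F)
        (Geo.subalgebraNormalizer K ⊓ Geo.specialLinear ι F) := by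
  have : Nonempty ι := Fintype.card_pos_iff.1 (by omega)
  refine fieldSub_elim hK fun E _ _ _ _ _ hE _ _ e => ?_
  subst hE
  have hm : finrank F E < finrank F (ι → F) := by simpa using hlt
  rw [e, specialLinear_eq, ← pull_inf]
  refine ⟨?_, isMaximalIn_pull (isMaximalIn_NK_SLV hr hm)⟩
  have h := isMaximalIn_pull (isMaximalIn_NK_top hr hm)
  have ht : pull (⊤ : Subgroup ((ι → F) ≃ₗ[F] (ι → F))) = ⊤ :=
    eq_top_iff.2 fun g _ => mem_pull.2 trivial
  rw [ht] at h
  exact ⟨h.1.ne, fun M hM => (h.2 M hM.le le_top).resolve_left hM.ne'⟩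

end H21
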